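import Mathlib
import Cfsg.Agent.Lib.Helper51.Zass.Defs

set_option autoImplicit false

namespace Cfsg.Agent.Lib.Helper27.Zass

open Cfsg.Agent.Lib.Helper51.Zass

universe u

section

variable {p : ℕ} {V : Type u} [AddCommGroup V] [Module (ZMod p) V]
  {G : Type u} [Group G] (ρ : G →* Module.End (ZMod p) V)

/-- (F0) an element of order 3 satisfies `A² + A + 1 = 0` -/
theorem quad_of_order_three (hfpf : ∀ g : G, g ≠ 1 → ∀ v : V, ρ g v = v → v = 0) (a : G)
    (ha : orderOf a = 3) : ρ a * ρ a + ρ a + 1 = 0 := by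
  have ha1 : a ≠ 1 := by
    rintro rfl
    rw [orderOf_one] at ha
    omega
  have ha3 : a ^ 3 = 1 := by
    rw [← ha]
    exact pow_orderOf_eq_one a
  have h3 : ρ a * ρ a * ρ a = 1 := by
    rw [← map_mul, ← map_mul, ← pow_two, ← pow_succ, ha3, map_one]
  have h4 : ρ a * (ρ a * ρ a + ρ a + 1) = ρ a * ρ a + ρ a + 1 := by
    rw [mul_add, mul_add, mul_one, ← mul_assoc, h3]
    abel
  ext v
  rw [LinearMap.zero_apply]
  apply hfpf a ha1
  exact congrArg (fun f : Module.End (ZMod p) V => f v) h4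

theorem sq_of_order_three (hfpf : ∀ g : G, g ≠ 1 → ∀ v : V, ρ g v = v → v = 0) (a : G)
    (ha : orderOf a = 3) : ρ a * ρ a = -ρ a - 1 := by
  have h := quad_of_order_three ρ hfpf a ha
  rw [add_assoc] at h
  rw [eq_neg_of_add_eq_zero_left h]
  abel

end

/-- four coefficients padded to eight -/
def vec4 {R : Type*} [Zero R] (c0 c1 c2 c3 : R) : Fin 8 → R := ![c0, c1, c2, c3, 0, 0, 0, 0]

theorem vec4_mem {R : Type*} [Ring R] {k : Type*} [CommSemiring k] [Algebra k R]
    (Z : Subalgebra k R) {c0 c1 c2 c3 : R}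
    (h0 : c0 ∈ Z) (h1 : c1 ∈ Z) (h2 : c2 ∈ Z) (h3 : c3 ∈ Z) : ∀ i, vec4 c0 c1 c2 c3 i ∈ Z := by
  intro i
  fin_cases i <;> simp [vec4, h0, h1, h2, h3, Z.zero_mem]

theorem vec4_sum {R : Type*} [Ring R] (c0 c1 c2 c3 r0 r1 r2 r3 : R) :
    ∑ i, vec4 c0 c1 c2 c3 i * vec4 r0 r1 r2 r3 i = c0 * r0 + c1 * r1 + c2 * r2 + c3 * r3 := by
  simp [Fin.sum_univ_eight, vec4]

/-- **[PAIR]** -/
theorem pkgPair (hE : PkgEnv.{u}) : PkgPair.{u} := by
  intro G _ _ hfl a b ha hb
  obtain ⟨p, hp, V, iV, iM, iF, iN, ρ, hfpf⟩ := hfl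
  have hA2 := sq_of_order_three ρ hfpf a ha
  have hB2 := sq_of_order_three ρ hfpf b hb
  generalize hAdef : ρ a = A at hA2
  generalize hBdef : ρ b = B at hB2
  set z : Module.End (ZMod p) V := A * B + B * A + A + B with hz
  have hzA : z * A = A * z := by
    have e1 : z * A = A * B * A + B * (A * A) + A * A + B * A := by
      rw [hz]
      noncomm_ring
    have e2 : A * z = A * A * B + A * B * A + A * A + A * B := by
      rw [hz]
      noncomm_ring
    rw [e1, e2, hA2]
    noncomm_ring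
  have hzB : z * B = B * z := by
    have e1 : z * B = A * (B * B) + B * A * B + A * B + B * B := by
      rw [hz]
      noncomm_ring
    have e2 : B * z = B * A * B + B * B * A + B * A + B * B := by
      rw [hz]
      noncomm_ring
    rw [e1, e2, hB2]
    noncomm_ring
  have hzB' : z * B = B * A * B - A - B - 1 := by
    have e1 : z * B = A * (B * B) + B * A * B + A * B + B * B := by
      rw [hz]
      noncomm_ring
    rw [e1, hB2]
    noncomm_ring
  set Z : Subalgebra (ZMod p) (Module.End (ZMod p) V) := Algebra.adjoin (ZMod p) {z} with hZ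
  have hzZ : z ∈ Z := Algebra.subset_adjoin (Set.mem_singleton z)
  have hcc := Algebra.adjoin_le_centralizer_centralizer (ZMod p) ({z} : Set (Module.End (ZMod p) V))
  have hZcomm : ∀ x ∈ Z, ∀ y ∈ Z, x * y = y * x := by
    intro x hx y hy
    exact Set.centralizer_centralizer_comm_of_comm (by simp) x (hcc hx) y (hcc hy)
  have hZcen : Z ≤ Subalgebra.centralizer (ZMod p) ({A, B} : Set (Module.End (ZMod p) V)) := by
    apply Algebra.adjoin_le
    intro x hx
    rw [Set.mem_singleton_iff] at hx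
    subst hx
    rw [SetLike.mem_coe, Subalgebra.mem_centralizer_iff]
    intro g hg
    rcases hg with rfl | rfl
    · exact hzA.symm
    · exact hzB.symm
  have hZS : ∀ x ∈ Z, ∀ g ∈ ({a, b} : Set G), x * ρ g = ρ g * x := by
    intro x hx g hg
    have h1 := (Subalgebra.mem_centralizer_iff (ZMod p)).mp (hZcen hx)
    rcases hg with rfl | rfl
    · rw [hAdef]
      exact (h1 A (Set.mem_insert _ _)).symm
    · rw [hBdef]
      exact (h1 B (Set.mem_insert_of_mem _ rfl)).symm
  have hAmem : A ∈ Algebra.adjoin (ZMod p)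
      ((Z : Set (Module.End (ZMod p) V)) ∪ ρ '' (Subgroup.closure ({a, b} : Set G) : Set G)) :=
    Algebra.subset_adjoin (Or.inr ⟨a, Subgroup.subset_closure (Set.mem_insert _ _), hAdef⟩)
  have hBmem : B ∈ Algebra.adjoin (ZMod p)
      ((Z : Set (Module.End (ZMod p) V)) ∪ ρ '' (Subgroup.closure ({a, b} : Set G) : Set G)) :=
    Algebra.subset_adjoin
      (Or.inr ⟨b, Subgroup.subset_closure (Set.mem_insert_of_mem _ rfl), hBdef⟩)
  have hS3 : ∀ g ∈ ({a, b} : Set G), orderOf g = 3 := by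
    intro g hg
    rcases hg with rfl | rfl
    · exact ha
    · exact hb
  apply hE p V G ρ hfpf {a, b} hS3 Z hZcomm hZS (vec4 1 A B (A * B))
  · intro i
    fin_cases i
    · exact Subalgebra.one_mem _
    · exact hAmem
    · exact hBmem
    · exact Subalgebra.mul_mem _ hAmem hBmem
    all_goals exact Subalgebra.zero_mem _
  · refine ⟨vec4 1 0 0 0, vec4_mem Z Z.one_mem Z.zero_mem Z.zero_mem Z.zero_mem, ?_⟩
    rw [vec4_sum]
    noncomm_ring
  · intro s hs j
    have hm1 : (-1 : Module.End (ZMod p) V) ∈ Z := Z.neg_mem Z.one_mem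
    rcases hs with rfl | rfl
    · rw [hAdef]
      fin_cases j
      · refine ⟨vec4 0 1 0 0, vec4_mem Z Z.zero_mem Z.one_mem Z.zero_mem Z.zero_mem, ?_⟩
        rw [vec4_sum]
        show A * 1 = _
        noncomm_ring
      · refine ⟨vec4 (-1) (-1) 0 0, vec4_mem Z hm1 hm1 Z.zero_mem Z.zero_mem, ?_⟩
        rw [vec4_sum]
        show A * A = _
        rw [hA2]
        noncomm_ring
      · refine ⟨vec4 0 0 0 1, vec4_mem Z Z.zero_mem Z.zero_mem Z.zero_mem Z.one_mem, ?_⟩
        rw [vec4_sum]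
        show A * B = _
        noncomm_ring
      · refine ⟨vec4 0 0 (-1) (-1), vec4_mem Z Z.zero_mem Z.zero_mem hm1 hm1, ?_⟩
        rw [vec4_sum]
        show A * (A * B) = _
        rw [← mul_assoc, hA2]
        noncomm_ring
      all_goals
        refine ⟨vec4 0 0 0 0, vec4_mem Z Z.zero_mem Z.zero_mem Z.zero_mem Z.zero_mem, ?_⟩
        rw [vec4_sum]
        show _ * (0 : Module.End (ZMod p) V) = _
        noncomm_ring
    · rw [hBdef]
      fin_cases j
      · refine ⟨vec4 0 0 1 0, vec4_mem Z Z.zero_mem Z.zero_mem Z.one_mem Z.zero_mem, ?_⟩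
        rw [vec4_sum]
        show B * 1 = _
        noncomm_ring
      · refine ⟨vec4 z (-1) (-1) (-1), vec4_mem Z hzZ hm1 hm1 hm1, ?_⟩
        rw [vec4_sum]
        show B * A = _
        rw [hz]
        noncomm_ring
      · refine ⟨vec4 (-1) 0 (-1) 0, vec4_mem Z hm1 Z.zero_mem hm1 Z.zero_mem, ?_⟩
        rw [vec4_sum]
        show B * B = _
        rw [hB2]
        noncomm_ring
      · refine ⟨vec4 1 1 (z + 1) 0,
          vec4_mem Z Z.one_mem Z.one_mem (Z.add_mem hzZ Z.one_mem) Z.zero_mem, ?_⟩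
        rw [vec4_sum]
        show B * (A * B) = _
        rw [add_mul, hzB']
        noncomm_ring
      all_goals
        refine ⟨vec4 0 0 0 0, vec4_mem Z Z.zero_mem Z.zero_mem Z.zero_mem Z.zero_mem, ?_⟩
        rw [vec4_sum]
        show _ * (0 : Module.End (ZMod p) V) = _
        noncomm_ring

end Cfsg.Agent.Lib.Helper27.Zass
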