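import Mathlib
import Cfsg.Agent.Lib.Helper51.Zass.Defs
import Cfsg.Agent.Lib.Helper27.Zass.Pair

/-!
# ZASS, package [T1]: cut into three sub-packages [T1-K], [T1-R], [T1-F] and the assembly.

Route (no quaternion frame needed): for a line `closure {w, a}` one of `w a`, `w a⁻¹` has square
the involution, which forces `z₀ := W A + A W + A + W ∈ {0, -1}` (`W = ρ w`, `A = ρ a`).
With `s := -(2W+1)`, `s_a := -(2A+1)`, `κ := 2 z₀ + 1 = ±1`, `u₁ := 3 s_a + κ s` one has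
`s² = -3`, `u₁² = -24`, `s u₁ = - u₁ s`; same for `b` (`u₂`); `c := u₁ u₂ + u₂ u₁` is central and
`1, s, u₁, u₂, s u₁, s u₂, u₁ u₂, s u₁ u₂` span the enveloping algebra over `adjoin {c}`.
-/

set_option autoImplicit false

namespace Cfsg.Agent.Lib.Helper27.Zass

open Cfsg.Agent.Lib.Helper51.Zass

universe u

/-- [T1-K] in a line `closure {w, a}`: `2, 3 ≠ 0` in `ZMod p` and
`W A + A W + A + W ∈ {0, -1}`. -/
def PkgT1K : Prop :=
  ∀ (p : ℕ) [Fact p.Prime] (V : Type u) [AddCommGroup V] [Module (ZMod p) V] [Finite V]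
    [Nontrivial V] (G : Type u) [Group G] [Finite G] (ρ : G →* Module.End (ZMod p) V),
    (∀ g : G, g ≠ 1 → ∀ v : V, ρ g v = v → v = 0) →
    (∀ s t : G, orderOf s = 2 → orderOf t = 2 → s = t) →
    ∀ w a : G, orderOf w = 3 → orderOf a = 3 → IsLine (Subgroup.closure {w, a}) →
      ((2 : ZMod p) ≠ 0 ∧ (3 : ZMod p) ≠ 0) ∧
      (ρ w * ρ a + ρ a * ρ w + ρ a + ρ w = 0 ∨ ρ w * ρ a + ρ a * ρ w + ρ a + ρ w = -1)

/-- [T1-R] the ring part: three roots `W, A, B` of `X² + X + 1` with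
`W A + A W + A + W ∈ {0, -1}` and `W B + B W + B + W ∈ {0, -1}` generate an algebra spanned by
8 elements over a commutative subalgebra commuting with `W, A, B`. -/
def PkgT1R : Prop :=
  ∀ (p : ℕ) [Fact p.Prime] (R : Type u) [Ring R] [Algebra (ZMod p) R],
    (2 : ZMod p) ≠ 0 → (3 : ZMod p) ≠ 0 →
    ∀ W A B : R, W * W + W + 1 = 0 → A * A + A + 1 = 0 → B * B + B + 1 = 0 →
      (W * A + A * W + A + W = 0 ∨ W * A + A * W + A + W = -1) →
      (W * B + B * W + B + W = 0 ∨ W * B + B * W + B + W = -1) →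
      ∃ (Z : Subalgebra (ZMod p) R) (r : Fin 8 → R),
        (∀ z ∈ Z, ∀ z' ∈ Z, z * z' = z' * z) ∧
        (∀ z ∈ Z, z * W = W * z ∧ z * A = A * z ∧ z * B = B * z) ∧
        (∀ i, r i ∈ Algebra.adjoin (ZMod p) ({W, A, B} : Set R)) ∧
        (∃ c : Fin 8 → R, (∀ i, c i ∈ Z) ∧ (1 : R) = ∑ i, c i * r i) ∧
        (∀ T ∈ ({W, A, B} : Set R), ∀ j, ∃ c : Fin 8 → R, (∀ i, c i ∈ Z) ∧
          T * r j = ∑ i, c i * r i)

/-- [T1-F] a subgroup with a `Shape` containing two different lines is a plane. -/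
def PkgT1F : Prop :=
  ∀ (G : Type u) [Group G] [Finite G] (w a b : G), Shape (Subgroup.closure {w, a, b}) →
    IsLine (Subgroup.closure {w, a}) → IsLine (Subgroup.closure {w, b}) →
    Subgroup.closure {w, a} ≠ Subgroup.closure {w, b} → IsPlane (Subgroup.closure {w, a, b})

/-- assembly of [T1] -/
theorem pkgT1_of (hK : PkgT1K.{u}) (hR : PkgT1R.{u}) (hF : PkgT1F.{u}) (hE : PkgEnv.{u})
    (hUI : PkgUI.{u}) : PkgT1.{u} := by
  intro G _ _ hfl w a b hw ha hb hL1 hL2 hne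
  have hui := hUI G hfl
  obtain ⟨p, hp, V, iV, iM, iF, iN, ρ, hfpf⟩ := hfl
  obtain ⟨⟨h2, h3⟩, hka⟩ := hK p V G ρ hfpf hui w a hw ha hL1
  obtain ⟨-, hkb⟩ := hK p V G ρ hfpf hui w b hw hb hL2
  have hW := quad_of_order_three ρ hfpf w hw
  have hA := quad_of_order_three ρ hfpf a ha
  have hB := quad_of_order_three ρ hfpf b hb
  obtain ⟨Z, r, hZc, hZW, hr, h1, hmul⟩ :=
    hR p (Module.End (ZMod p) V) h2 h3 (ρ w) (ρ a) (ρ b) hW hA hB hka hkb
  apply hF G w a b _ hL1 hL2 hne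
  have hS3 : ∀ g ∈ ({w, a, b} : Set G), orderOf g = 3 := by
    intro g hg
    rcases hg with rfl | rfl | rfl
    · exact hw
    · exact ha
    · exact hb
  have hZS : ∀ z ∈ Z, ∀ g ∈ ({w, a, b} : Set G), z * ρ g = ρ g * z := by
    intro z hz g hg
    obtain ⟨e1, e2, e3⟩ := hZW z hz
    rcases hg with rfl | rfl | rfl
    · exact e1
    · exact e2
    · exact e3
  have hsub : ({ρ w, ρ a, ρ b} : Set (Module.End (ZMod p) V)) ⊆
      (Z : Set (Module.End (ZMod p) V)) ∪ ρ '' (Subgroup.closure ({w, a, b} : Set G) : Set G) := by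
    intro x hx
    right
    rcases hx with rfl | rfl | rfl
    · exact ⟨w, Subgroup.subset_closure (by simp), rfl⟩
    · exact ⟨a, Subgroup.subset_closure (by simp), rfl⟩
    · exact ⟨b, Subgroup.subset_closure (by simp), rfl⟩
  apply hE p V G ρ hfpf {w, a, b} hS3 Z hZc hZS r
  · intro i
    exact Algebra.adjoin_mono hsub (hr i)
  · exact h1
  · intro s hs j
    apply hmul
    rcases hs with rfl | rfl | rfl
    · simp
    · simp
    · simp

end Cfsg.Agent.Lib.Helper27.Zass
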